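import Cfsg.Agent.H226.KList
import Cfsg.Agent.KFacts.LFourThree.Facts
import Cfsg.Agent.KFacts.PSpFourThree.Main
import Cfsg.Agent.Lib.NormalAbelian
import Cfsg.Agent.Lib.LocalCore
import Cfsg.Agent.S0822

/-!
# The pair `(L₄(3), U₄(2))` (helper334, task 1787)

`K ≅ PSL₄(3)`, `L ≤ K`, `L ≅ PSU₄(2)`, `S` a Sylow 2-subgroup of `K` normalising `L`, `1 ≠ z ∈ Z(S)`: then
`N_K(O₂(C_K(z))) ≤ N_K(L)`.
-/

set_option autoImplicit false

open Subgroup

universe u v

namespace Cfsg.Agent.H334.KillL43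

open Cfsg Cfsg.Agent.OddHalf.D6.QThree.Facts

section

variable {X : Type*} [Group X]

theorem card_cent_map {Y : Type*} [Group Y] (e : X ≃* Y) (z : X) :
    Nat.card (centralizer ({e z} : Set Y)) = Nat.card (centralizer ({z} : Set X)) := by
  have h1 : centralizer ({e z} : Set Y) = (centralizer ({z} : Set X)).map e.toMonoidHom := by
    ext y
    obtain ⟨x, rfl⟩ := e.surjective y
    constructor
    · intro hx
      exact ⟨x, mem_centralizer_singleton_iff.2 ((tr_comm e).1 (mem_centralizer_singleton_iff.1 hx)), rfl⟩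
    · intro hx
      have h2 : x ∈ centralizer ({z} : Set X) := (tr_mem e).1 hx
      exact mem_centralizer_singleton_iff.2 ((tr_comm e).2 (mem_centralizer_singleton_iff.1 h2))
  rw [h1]
  exact card_map_of_injective (f := e.toMonoidHom) e.injective

/-- a 2-group is contained in the centraliser of a conjugate of `z₀` -/
theorem exists_conj_comm [Finite X] {z₀ : X} (hodd : Odd (centralizer ({z₀} : Set X)).index) (S : Sylow 2 X) :
    ∃ g : X, ∀ s ∈ S, s * (g * z₀ * g⁻¹) = (g * z₀ * g⁻¹) * s := by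
  have : Fact (Nat.Prime 2) := ⟨Nat.prime_two⟩
  have h1 : ¬ 2 ∣ Nat.card (X ⧸ centralizer ({z₀} : Set X)) := by
    intro h
    exact (Nat.not_even_iff_odd.2 hodd) (even_iff_two_dvd.2 h)
  obtain ⟨q, hq⟩ := S.isPGroup'.nonempty_fixed_point_of_prime_not_dvd_card (X ⧸ centralizer ({z₀} : Set X)) h1
  obtain ⟨g, rfl⟩ := QuotientGroup.mk_surjective q
  refine ⟨g, fun s hs => ?_⟩
  have h2 : ((s * g : X) : X ⧸ centralizer ({z₀} : Set X)) = (g : X ⧸ centralizer ({z₀} : Set X)) := hq ⟨s, hs⟩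
  have h3 : g⁻¹ * (s * g) ∈ centralizer ({z₀} : Set X) := QuotientGroup.eq.1 h2.symm
  have h4 := mem_centralizer_singleton_iff.1 h3
  calc s * (g * z₀ * g⁻¹) = g * (g⁻¹ * (s * g) * z₀) * g⁻¹ := by group
    _ = g * (z₀ * (g⁻¹ * (s * g))) * g⁻¹ := by rw [h4]
    _ = (g * z₀ * g⁻¹) * s := by group

/-- the involution in the centre of a Sylow 2-subgroup -/
theorem exists_base [Finite X] {z₀ : X} {R₀ : Subgroup X} (h : Base z₀ R₀) (S : Sylow 2 X) {z : X} (hz1 : z ≠ 1)
    (hzS : z ∈ S) (hzc : ∀ s ∈ S, s * z = z * s) :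
    ∃ R : Subgroup X, Base z R ∧ R ≤ S ∧
      Nat.card (centralizer ({z} : Set X)) = Nat.card (centralizer ({z₀} : Set X)) := by
  have : Fact (Nat.Prime 2) := ⟨Nat.prime_two⟩
  obtain ⟨g, hg⟩ := exists_conj_comm h.odd S
  have h' := h.map (MulAut.conj g)
  have hcard := card_cent_map (MulAut.conj g) z₀
  have e1 : MulAut.conj g z₀ = g * z₀ * g⁻¹ := rfl
  rw [e1] at h' hcard
  set z' := g * z₀ * g⁻¹ with hz'
  set R := R₀.map (MulAut.conj g).toMonoidHom with hR
  have hSR : (S : Subgroup X) ≤ normalizer (R : Set X) := by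
    intro s hs
    rw [mem_normalizer_iff]
    intro r
    constructor
    · intro hr
      exact h'.nR s (hg s hs) r hr
    · intro hr
      have h3 := h'.nR s⁻¹ (hg s⁻¹ (S.inv_mem hs)) _ hr
      have h4 : s⁻¹ * (s * r * s⁻¹) * s⁻¹⁻¹ = r := by group
      rwa [h4] at h3
  have hRS : R ≤ S := by
    have h3 := IsPGroup.to_sup_of_normal_right' S.isPGroup' h'.pR hSR
    have h4 := S.is_maximal' h3 le_sup_left
    rw [← h4]
    exact le_sup_right
  rcases h'.cR z (hg z hzS) (fun r hr => (hzc r (hRS hr)).symm) with h3 | h3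
  · exact absurd h3 hz1
  · rw [h3]
    exact ⟨R, h', hRS, hcard⟩

/-- `O₂(C(z)) = R` -/
theorem pCore_eq {z : X} {R : Subgroup X} (h : Base z R) :
    (pCore 2 (centralizer ({z} : Set X))).map (centralizer ({z} : Set X)).subtype = R := by
  have hn := Lib.LocalCore.le_normalizer_map_pCore 2 (centralizer ({z} : Set X))
  apply le_antisymm
  · apply h.max
    · exact (Lib.Cores.pCore_isPGroup 2).map _
    · rintro _ ⟨n, -, rfl⟩
      exact mem_centralizer_singleton_iff.1 n.2
    · intro g hg n hn'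
      exact (mem_normalizer_iff.1 (hn (mem_centralizer_singleton_iff.2 hg)) n).1 hn'
  · apply Lib.LocalCore.le_map_pCore
    · intro r hr
      exact mem_centralizer_singleton_iff.2 (h.RP r hr)
    · exact h.pR
    · intro g hg
      have hg' := mem_centralizer_singleton_iff.1 hg
      rw [mem_normalizer_iff]
      intro r
      constructor
      · intro hr
        exact h.nR g hg' r hr
      · intro hr
        have h3 := h.nR g⁻¹ (mem_centralizer_singleton_iff.1 (inv_mem hg)) _ hr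
        have h4 : g⁻¹ * (g * r * g⁻¹) * g⁻¹⁻¹ = r := by group
        rwa [h4] at h3

/-- `N(R) ≤ C(z)` -/
theorem normalizer_le {z : X} {R : Subgroup X} (h : Base z R) :
    normalizer (R : Set X) ≤ centralizer ({z} : Set X) := by
  intro g hg
  have hR := fun r => (mem_normalizer_iff.1 hg r).1
  have hR' := fun r => (mem_normalizer_iff'.1 hg r).1
  rw [mem_centralizer_singleton_iff]
  have h1 := hR z h.zR
  rcases h.cR (g * z * g⁻¹) (h.RP _ h1) (fun r hr => by
    have h2 : g⁻¹ * r * g ∈ R := by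
      have h3 := (mem_normalizer_iff.1 (inv_mem hg) r).1 hr
      rwa [inv_inv] at h3
    have h3 := h.RP _ h2
    calc g * z * g⁻¹ * r = g * (z * (g⁻¹ * r * g)) * g⁻¹ := by group
      _ = g * (g⁻¹ * r * g * z) * g⁻¹ := by rw [h3]
      _ = r * (g * z * g⁻¹) := by group) with h2 | h2
  · exact absurd (by
      calc z = g⁻¹ * (g * z * g⁻¹) * g := by group
        _ = 1 := by rw [h2]; group) h.z1
  · calc g * z = g * z * g⁻¹ * g := by group
      _ = z * g := by rw [h2]

end

/-! ### `9` divides `|C(z)|` in `PSp₄(3)` -/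

section

open Cfsg.Agent.KFacts.PSpFourThree
open Cfsg.Agent.KFacts.PSpFourThree.PE

def d2 : PE := ⟨M2.one, tt, false⟩

theorem ok_d2 : d2.Ok := ⟨by decide, by decide⟩

theorem nine_dvd : 9 ∣ Nat.card (centralizer ({PE.z} : Set (PSp 2 (Lib.FieldThree.F3)))) := by
  have c1 : d1.el * PE.z = PE.z * d1.el := z_comm ok_d1
  have c2 : d2.el * PE.z = PE.z * d2.el := z_comm ok_d2
  have c12 : d1.el * d2.el = d2.el * d1.el := (comm_iff ok_d1 ok_d2).2 (by decide)
  have o1 : orderOf d1.el = 3 := by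
    apply orderOf_eq_prime
    · rw [pow_succ, pow_two, ← el_mul ok_d1 ok_d1, ← el_mul (ok_d1.mul ok_d1) ok_d1,
        el_eq_one ((ok_d1.mul ok_d1).mul ok_d1)]
      decide
    · rw [Ne, el_eq_one ok_d1]; decide
  have o2 : orderOf d2.el = 3 := by
    apply orderOf_eq_prime
    · rw [pow_succ, pow_two, ← el_mul ok_d2 ok_d2, ← el_mul (ok_d2.mul ok_d2) ok_d2,
        el_eq_one ((ok_d2.mul ok_d2).mul ok_d2)]
      decide
    · rw [Ne, el_eq_one ok_d2]; decide
  have hb : d2.el ∉ zpowers d1.el := by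
    intro h
    obtain ⟨k, hk⟩ := mem_zpowers_iff.1 h
    have h3 := zpow_mod_orderOf d1.el k
    rw [o1, hk] at h3
    have h4 : k % 3 = 0 ∨ k % 3 = 1 ∨ k % 3 = 2 := by omega
    push_cast at h3
    rcases h4 with h4 | h4 | h4 <;> rw [h4] at h3
    · rw [zpow_zero] at h3
      have h5 := (el_eq_one ok_d2).1 h3.symm
      revert h5; decide
    · rw [zpow_one] at h3
      have h5 := (el_eq_iff ok_d1 ok_d2).1 h3
      revert h5; decide
    · have h6 : d1.el ^ (2 : ℤ) = (d1.mul d1).el := by rw [el_mul ok_d1 ok_d1]; exact zpow_two _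
      rw [h6] at h3
      have h5 := (el_eq_iff (ok_d1.mul ok_d1) ok_d2).1 h3
      revert h5; decide
  have : Fact (Nat.Prime 3) := ⟨Nat.prime_three⟩
  have p1 : IsPGroup 3 (zpowers d1.el) := IsPGroup.of_card (n := 1) (by rw [Nat.card_zpowers, o1, pow_one])
  have p2 : IsPGroup 3 (zpowers d2.el) := IsPGroup.of_card (n := 1) (by rw [Nat.card_zpowers, o2, pow_one])
  have hn : zpowers d1.el ≤ normalizer (zpowers d2.el : Set (PSp 2 (Lib.FieldThree.F3))) := by
    rw [zpowers_le]
    have h5 : d1.el ∈ centralizer (zpowers d2.el : Set (PSp 2 (Lib.FieldThree.F3))) := by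
      rw [mem_centralizer_iff]
      rintro x ⟨k, rfl⟩
      exact ((show Commute d2.el d1.el from c12.symm).zpow_left k).eq
    exact (Subgroup.centralizer_le_normalizer _) h5
  have p3 := IsPGroup.to_sup_of_normal_right' p1 p2 hn
  have hle : zpowers d1.el ⊔ zpowers d2.el ≤ centralizer ({PE.z} : Set (PSp 2 (Lib.FieldThree.F3))) := by
    rw [sup_le_iff, zpowers_le, zpowers_le]
    exact ⟨mem_centralizer_singleton_iff.2 c1, mem_centralizer_singleton_iff.2 c2⟩
  obtain ⟨n, hn'⟩ := IsPGroup.iff_card.1 p3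
  have hlt : Nat.card (zpowers d1.el) < Nat.card (zpowers d1.el ⊔ zpowers d2.el : Subgroup (PSp 2 (Lib.FieldThree.F3))) := by
    rw [← Nat.not_le]
    intro h
    have h6 := eq_of_le_of_card_ge (le_sup_left : zpowers d1.el ≤ zpowers d1.el ⊔ zpowers d2.el) h
    apply hb
    rw [h6]
    exact (le_sup_right : zpowers d2.el ≤ _) (mem_zpowers _)
  rw [Nat.card_zpowers, o1, hn'] at hlt
  have hn2 : 2 ≤ n := by
    by_contra h
    have h7 : n = 0 ∨ n = 1 := by omega
    rcases h7 with rfl | rfl <;> norm_num at hlt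
  refine dvd_trans ?_ (card_dvd_of_le hle)
  rw [hn']
  exact (show 9 = 3 ^ 2 by norm_num) ▸ pow_dvd_pow 3 hn2

end

/-! ### The Sylow 2-subgroups of a subgroup -/

section

variable {X : Type*} [Group X] [Finite X]

theorem relIndex_sup_normal (H K : Subgroup X) [K.Normal] : H.relIndex (H ⊔ K) = H.relIndex K := by
  have h1 : K.relIndex (H ⊔ K) = K.relIndex H := relIndex_sup_right H K
  have e1 : (H ⊓ K).relIndex H * H.relIndex (H ⊔ K) = (H ⊓ K).relIndex (H ⊔ K) :=
    relIndex_mul_relIndex _ _ _ inf_le_left le_sup_left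
  have e2 : (H ⊓ K).relIndex K * K.relIndex (H ⊔ K) = (H ⊓ K).relIndex (H ⊔ K) :=
    relIndex_mul_relIndex _ _ _ inf_le_right le_sup_right
  have e3 : (H ⊓ K).relIndex H = K.relIndex H := by
    rw [← inf_relIndex_right K H, inf_comm]
  have e4 : (H ⊓ K).relIndex K = H.relIndex K := inf_relIndex_right H K
  rw [e3] at e1
  rw [e4, h1] at e2
  have hpos : K.relIndex H ≠ 0 := index_ne_zero_of_finite
  have : K.relIndex H * H.relIndex (H ⊔ K) = K.relIndex H * H.relIndex K := by
    rw [e1, ← e2, mul_comm]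
  exact Nat.eq_of_mul_eq_mul_left (Nat.pos_of_ne_zero hpos) this

/-- `S ∩ L` is a Sylow 2-subgroup of `L` -/
theorem exists_sylow (S : Sylow 2 X) {L : Subgroup X} (hS : (S : Subgroup X) ≤ normalizer (L : Set X)) :
    ∃ T : Sylow 2 L, (T : Subgroup L) = (S : Subgroup X).subgroupOf L := by
  have : Fact (Nat.Prime 2) := ⟨Nat.prime_two⟩
  have h1 : IsPGroup 2 ((S : Subgroup X).subgroupOf L) :=
    S.isPGroup'.comap_of_injective L.subtype L.subtype_injective
  have h2 : ¬ 2 ∣ ((S : Subgroup X).subgroupOf L).index := by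
    have h3 := relIndex_sup_normal ((S : Subgroup X).subgroupOf (normalizer (L : Set X)))
      (L.subgroupOf (normalizer (L : Set X)))
    rw [relIndex_subgroupOf L.le_normalizer] at h3
    intro h
    have h4 : 2 ∣ ((S : Subgroup X).subgroupOf (normalizer (L : Set X))).relIndex
        ((S : Subgroup X).subgroupOf (normalizer (L : Set X)) ⊔ L.subgroupOf (normalizer (L : Set X))) := h3 ▸ h
    have h5 := h4.trans (relIndex_dvd_index_of_le le_sup_left)
    exact S.not_dvd_index (h5.trans (relIndex_dvd_index_of_le hS))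
  exact ⟨h1.toSylow h2, rfl⟩

end

/-! ### The theorem -/

theorem base_l43 {K : Type u} [Group K] (hK : H226.KList.PSLn 4 3 K) :
    ∃ (z : K) (R : Subgroup K), Base z R ∧ Nat.card (centralizer ({z} : Set K)) = 1152 := by
  obtain ⟨F, _, _, hF, ⟨e⟩⟩ := hK
  obtain ⟨f⟩ := LargeExtra.W2.LFour.PslFacts.psl_congr F hF
  refine ⟨_, _, KFacts.LFourThree.Facts.one_L.toBase.map (f.trans e.symm), ?_⟩
  rw [card_cent_map]
  exact KFacts.LFourThree.card_cent

theorem base_u42 {L : Type u} [Group L] (hL : H226.KList.PSUn 4 2 L) :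
    ∃ (z : L) (R : Subgroup L), Base z R ∧ 9 ∣ Nat.card (centralizer ({z} : Set L)) := by
  obtain ⟨F, _, _, hF, ⟨e⟩⟩ := hL
  obtain ⟨f⟩ := S0822.result (F := F) (K := Lib.FieldThree.F3) (by rw [hF]; norm_num) Lib.FieldThree.F3.card
  refine ⟨_, _, KFacts.PSpFourThree.three.toBase.map (e.trans f).symm, ?_⟩
  rw [card_cent_map]
  exact nine_dvd

theorem kill_l43 {K : Type u} [Group K] [Finite K] (hK : Cfsg.Agent.H226.KList.PSLn 4 3 K) {L : Subgroup K}
    (hL : Cfsg.Agent.H226.KList.PSUn 4 2 L) {S : Sylow 2 K} (hS : (S : Subgroup K) ≤ normalizer (L : Set K)) {z : K}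
    (hz1 : z ≠ 1) (hzS : z ∈ S) (hzc : ∀ s ∈ S, s * z = z * s) :
    normalizer (((pCore 2 (centralizer ({z} : Set K))).map (centralizer ({z} : Set K)).subtype : Subgroup K) : Set K) ≤
      normalizer (L : Set K) := by
  have : Fact (Nat.Prime 2) := ⟨Nat.prime_two⟩
  obtain ⟨z₀, R₀, hb₀, hc₀⟩ := base_l43 hK
  obtain ⟨R, hb, hRS, hc⟩ := exists_base hb₀ S hz1 hzS hzc
  rw [hc₀] at hc
  rw [pCore_eq hb]
  refine (normalizer_le hb).trans ?_
  obtain ⟨z₁, R₁, hb₁, hc₁⟩ := base_u42 hL
  obtain ⟨T, hT⟩ := exists_sylow S hS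
  have hTm : ∀ x : L, x ∈ T ↔ (x : K) ∈ S := fun x => by
    change x ∈ (T : Subgroup L) ↔ _
    rw [hT, mem_subgroupOf]; rfl
  -- `T ≠ 1`
  have h2 : 2 ∣ Nat.card L := by
    have h3 : orderOf z₁ = 2 := orderOf_eq_prime (by rw [pow_two]; exact hb₁.zz) hb₁.z1
    rw [← h3]; exact orderOf_dvd_natCard z₁
  have hT1 : (T : Subgroup L) ≠ ⊥ := T.ne_bot_of_dvd_card h2
  -- a central element of `S` in `L`
  have hn : (L.subgroupOf (S : Subgroup K)).Normal := by
    constructor
    intro k hk s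
    rw [mem_subgroupOf] at hk ⊢
    exact (mem_normalizer_iff.1 (hS s.2) _).1 hk
  have hnil : Group.IsNilpotent (S : Subgroup K) := S.isPGroup'.isNilpotent
  have h1 : L.subgroupOf (S : Subgroup K) ≠ ⊥ := by
    intro h2
    apply hT1
    rw [eq_bot_iff]
    intro x hx
    have hx' : (x : K) ∈ S := (hTm x).1 hx
    have h3 : (⟨x, hx'⟩ : (S : Subgroup K)) ∈ L.subgroupOf (S : Subgroup K) := mem_subgroupOf.2 x.2
    rw [h2, mem_bot] at h3
    exact Subtype.ext (congrArg (fun y : (S : Subgroup K) => (y : K)) h3)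
  have h3 := Lib.NormalAbelian.normal_inf_center_ne_bot (L.subgroupOf (S : Subgroup K)) h1
  have hnt := (Subgroup.nontrivial_iff_ne_bot _).2 h3
  obtain ⟨w, hw⟩ := exists_ne (1 : ↥(L.subgroupOf (S : Subgroup K) ⊓ center (S : Subgroup K)))
  have hwc : ∀ s ∈ S, s * ((w : (S : Subgroup K)) : K) = ((w : (S : Subgroup K)) : K) * s := fun s hs =>
    congrArg Subtype.val (mem_center_iff.1 w.2.2 ⟨s, hs⟩)
  have hwz : ((w : (S : Subgroup K)) : K) = z := by
    rcases hb.cR _ (hwc z hzS).symm (fun r hr => (hwc r (hRS hr)).symm) with h4 | h4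
    · exact absurd (Subtype.ext (Subtype.ext h4)) hw
    · exact h4
  have hzL : z ∈ L := by rw [← hwz]; exact mem_subgroupOf.1 w.2.1
  -- the centraliser in `L`
  obtain ⟨R₂, -, -, hc₂⟩ := exists_base hb₁ T (z := (⟨z, hzL⟩ : L)) (fun h => hz1 (congrArg Subtype.val h))
    ((hTm _).2 hzS) (fun s hs => Subtype.ext (hzc s ((hTm s).1 hs)))
  rw [← hc₂] at hc₁
  have h9 : 9 ∣ Nat.card (centralizer ({z} : Set K) ⊓ normalizer (L : Set K) : Subgroup K) := by
    have h4 : (centralizer ({(⟨z, hzL⟩ : L)} : Set L)).map L.subtype ≤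
        centralizer ({z} : Set K) ⊓ normalizer (L : Set K) := by
      rintro _ ⟨x, hx, rfl⟩
      exact ⟨mem_centralizer_singleton_iff.2 (congrArg Subtype.val (mem_centralizer_singleton_iff.1 hx)),
        L.le_normalizer x.2⟩
    have h5 := card_dvd_of_le h4
    rw [card_map_of_injective L.subtype_injective] at h5
    exact hc₁.trans h5
  have hSC : (S : Subgroup K) ≤ centralizer ({z} : Set K) := fun s hs => mem_centralizer_singleton_iff.2 (hzc s hs)
  have h128 : 128 ∣ Nat.card (S : Subgroup K) := by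
    have h4 : Nat.card (S : Subgroup K) * (S : Subgroup K).relIndex (centralizer ({z} : Set K)) = 1152 := by
      rw [← hc, ← relIndex_bot_left, ← relIndex_bot_left]
      exact relIndex_mul_relIndex _ _ _ bot_le hSC
    have h5 : ¬ 2 ∣ (S : Subgroup K).relIndex (centralizer ({z} : Set K)) := fun h =>
      S.not_dvd_index (h.trans (relIndex_dvd_index_of_le hSC))
    have h6 : Nat.Coprime 128 ((S : Subgroup K).relIndex (centralizer ({z} : Set K))) := by
      have : (128 : ℕ) = 2 ^ 7 := by norm_num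
      rw [this]
      exact Nat.Coprime.pow_left 7 ((Nat.Prime.coprime_iff_not_dvd Nat.prime_two).2 h5)
    apply h6.dvd_of_dvd_mul_right
    rw [h4]; norm_num
  have h128' : 128 ∣ Nat.card (centralizer ({z} : Set K) ⊓ normalizer (L : Set K) : Subgroup K) :=
    h128.trans (card_dvd_of_le (le_inf hSC hS))
  have h1152 : 1152 ∣ Nat.card (centralizer ({z} : Set K) ⊓ normalizer (L : Set K) : Subgroup K) := by
    have : (1152 : ℕ) = 128 * 9 := by norm_num
    rw [this]
    exact Nat.Coprime.mul_dvd_of_dvd_of_dvd (by norm_num) h128' h9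
  have heq : centralizer ({z} : Set K) ⊓ normalizer (L : Set K) = centralizer ({z} : Set K) := by
    apply eq_of_le_of_card_ge inf_le_left
    rw [hc]
    exact Nat.le_of_dvd Nat.card_pos h1152
  rw [← heq]
  exact inf_le_right

end Cfsg.Agent.H334.KillL43
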